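import Mathlib
import Cfsg.Agent.Lib.Helper4.QuadFin

namespace Cfsg.Agent.Lib.Helper4.QuadRefl

open QuadraticMap Cfsg.Agent.Lib.Helper4.QuadFin

variable {F V : Type*} [Field F] [AddCommGroup V] [Module F V]

/-- the reflection (orthogonal transvection) in a nonsingular vector, as a linear map. -/
noncomputable def reflLin (Q : QuadraticForm F V) (w : V) : V →ₗ[F] V :=
  LinearMap.id - ((Q w)⁻¹ • (polarBilin Q w)).smulRight w

theorem reflLin_apply (Q : QuadraticForm F V) (w x : V) :
    reflLin Q w x = x - ((Q w)⁻¹ * polar Q w x) • w := by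
  simp [reflLin]

theorem reflLin_invol (Q : QuadraticForm F V) (w : V) (hw : Q w ≠ 0) (x : V) :
    reflLin Q w (reflLin Q w x) = x := by
  rw [reflLin_apply, reflLin_apply]
  have h1 : polar Q w (x - ((Q w)⁻¹ * polar Q w x) • w) = - polar Q w x := by
    rw [polar_sub_right, polar_smul_r, polar_self']
    field_simp
    ring
  rw [h1, mul_neg, neg_smul]
  abel

theorem reflLin_map (Q : QuadraticForm F V) (w : V) (hw : Q w ≠ 0) (x : V) :
    Q (reflLin Q w x) = Q x := by
  rw [reflLin_apply, sub_eq_add_neg, ← neg_smul, map_add', map_smul', polar_smul_r, polar_comm Q x w]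
  field_simp
  ring

/-- the reflection as an isometry. -/
noncomputable def refl (Q : QuadraticForm F V) (w : V) (hw : Q w ≠ 0) : Q.IsometryEquiv Q :=
  { LinearEquiv.ofInvolutive (reflLin Q w) (reflLin_invol Q w hw) with
    map_app' := reflLin_map Q w hw }

theorem refl_apply (Q : QuadraticForm F V) (w : V) (hw : Q w ≠ 0) (x : V) :
    refl Q w hw x = x - ((Q w)⁻¹ * polar Q w x) • w := reflLin_apply Q w x

theorem refl_fix (Q : QuadraticForm F V) (w : V) (hw : Q w ≠ 0) (x : V) (hx : polar Q w x = 0) :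
    refl Q w hw x = x := by
  rw [refl_apply, hx, mul_zero, zero_smul, sub_zero]

theorem refl_move (Q : QuadraticForm F V) (a b : V) (hab : Q a = Q b) (hw : Q (a - b) ≠ 0) :
    refl Q (a - b) hw a = b := by
  rw [refl_apply]
  have h1 : polar Q (a - b) a = Q (a - b) := by
    have h2 : Q (a - b) = Q a + Q b - polar Q a b := by
      rw [sub_eq_add_neg, map_add', QuadraticMap.map_neg, polar_neg_right]; ring
    rw [polar_sub_left, polar_self', h2, hab, polar_comm Q b a]
    ring
  rw [h1, inv_mul_cancel₀ hw, one_smul]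
  abel

theorem isometry_polar (Q : QuadraticForm F V) (φ : Q.IsometryEquiv Q) (x y : V) :
    polar Q (φ x) (φ y) = polar Q x y := by
  unfold polar
  rw [← map_add, φ.map_app, φ.map_app, φ.map_app]

/-- In an anisotropic space, families with the same Gram data are related by an isometry. -/
theorem exists_isometry_of_gram (Q : QuadraticForm F V) (hQ : Q.Anisotropic) {n : ℕ} (a b : Fin n → V)
    (h1 : ∀ i, Q (a i) = Q (b i)) (h2 : ∀ i j, polar Q (a i) (a j) = polar Q (b i) (b j)) :
    ∃ φ : Q.IsometryEquiv Q, ∀ i, φ (a i) = b i := by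
  have key : ∀ k : ℕ, ∃ φ : Q.IsometryEquiv Q, ∀ i : Fin n, i.val < k → φ (a i) = b i := by
    intro k
    induction k with
    | zero => exact ⟨QuadraticMap.IsometryEquiv.refl Q, fun i hi => absurd hi (Nat.not_lt_zero _)⟩
    | succ k ih =>
      obtain ⟨φ, hφ⟩ := ih
      by_cases hk : k < n
      · by_cases hab : φ (a ⟨k, hk⟩) = b ⟨k, hk⟩
        · refine ⟨φ, fun i hi => ?_⟩
          rcases Nat.lt_succ_iff_lt_or_eq.1 hi with h | h
          · exact hφ i h
          · have : i = ⟨k, hk⟩ := Fin.ext h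
            rw [this, hab]
        · have hw : Q (φ (a ⟨k, hk⟩) - b ⟨k, hk⟩) ≠ 0 := fun h => hab (sub_eq_zero.1 (hQ _ h))
          refine ⟨φ.trans (refl Q _ hw), fun i hi => ?_⟩
          show refl Q _ hw (φ (a i)) = b i
          rcases Nat.lt_succ_iff_lt_or_eq.1 hi with h | h
          · rw [hφ i h]
            apply refl_fix
            rw [polar_sub_left, ← hφ i h, isometry_polar, hφ i h, h2, sub_self]
          · have : i = ⟨k, hk⟩ := Fin.ext h
            rw [this]
            exact refl_move Q _ _ (by rw [φ.map_app, h1]) hw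
      · exact ⟨φ, fun i _ => hφ i (by omega)⟩
  obtain ⟨φ, hφ⟩ := key n
  exact ⟨φ, fun i => hφ i i.2⟩

end Cfsg.Agent.Lib.Helper4.QuadRefl
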