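import Mathlib
import Cfsg.Agent.Lib.Helper4.SL2Prod

set_option autoImplicit false

namespace Cfsg.Agent.Lib.Helper4.SL2Class

open Matrix Cfsg.Agent.Lib.Helper4.SL2Eigen Cfsg.Agent.Lib.Helper4.SL2Conj Cfsg.Agent.Lib.Helper4.GL2Conj
  Cfsg.Agent.Lib.Helper4.PSL2Spec Cfsg.Agent.Lib.Helper4.SL2Prod

theorem index_centralizer {G : Type*} [Group G] [Finite G] (x : G) :
    (Subgroup.centralizer ({x} : Set G)).index = Nat.card {y : G // IsConj x y} := by
  classical
  have : Fintype G := Fintype.ofFinite G
  have : Fintype (ConjAct G) := Fintype.ofFinite _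
  have h := MulAction.card_orbit_mul_card_stabilizer_eq_card_group (ConjAct G) x
  rw [← Nat.card_eq_fintype_card, ← Nat.card_eq_fintype_card, ← Nat.card_eq_fintype_card,
    ← Subgroup.nat_card_centralizer_nat_card_stabilizer] at h
  have h2 : Nat.card (MulAction.orbit (ConjAct G) x) = Nat.card {y : G // IsConj x y} := by
    refine Nat.card_congr (Equiv.subtypeEquivRight fun y => ?_)
    rw [ConjAct.mem_orbit_conjAct]
    exact ⟨IsConj.symm, IsConj.symm⟩
  rw [h2] at h
  have h3 := Subgroup.index_mul_card (Subgroup.centralizer ({x} : Set G))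
  have h4 : Nat.card (ConjAct G) = Nat.card G := rfl
  rw [h4, ← h3] at h
  exact (Nat.eq_of_mul_eq_mul_right Nat.card_pos h).symm

variable {F : Type*} [Field F]

/-- number of roots of `X² - tX + 1` -/
noncomputable def Nt [Fintype F] (t : F) : ℕ := by
  classical exact (Finset.univ.filter (fun a : F => a * (t - a) = 1)).card

theorem card_triples [Fintype F] [DecidableEq F] (t : F) :
    (Finset.univ.filter (fun p : F × F × F => p.1 * (t - p.1) - p.2.1 * p.2.2 = 1)).card =
      Fintype.card F * (Fintype.card F - 1) + Nt t * Fintype.card F := by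
  classical
  rw [← Finset.card_filter_add_card_filter_not (s := Finset.univ.filter
    (fun p : F × F × F => p.1 * (t - p.1) - p.2.1 * p.2.2 = 1)) (fun p => p.2.2 ≠ 0)]
  congr 1
  · have : Fintype.card F * (Fintype.card F - 1) =
        ((Finset.univ : Finset F) ×ˢ (Finset.univ.filter (fun c : F => c ≠ 0))).card := by
      rw [Finset.card_product, Finset.card_univ, Finset.filter_ne', Finset.card_erase_of_mem (Finset.mem_univ _),
        Finset.card_univ]
    rw [this]
    apply Finset.card_nbij' (fun p => (p.1, p.2.2)) (fun p => (p.1, (p.1 * (t - p.1) - 1) / p.2, p.2))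
    · rintro ⟨a, b, c⟩ h
      simp at h ⊢
      exact h.2
    · rintro ⟨a, c⟩ h
      simp at h ⊢
      refine ⟨?_, h⟩
      field_simp
      ring
    · rintro ⟨a, b, c⟩ h
      simp at h ⊢
      obtain ⟨h1, h2⟩ := h
      field_simp
      linear_combination h1
    · rintro ⟨a, c⟩ h
      rfl
  · have : Nt t * Fintype.card F =
        ((Finset.univ.filter (fun a : F => a * (t - a) = 1)) ×ˢ (Finset.univ : Finset F)).card := by
      rw [Finset.card_product, Finset.card_univ]
      congr 1
      unfold Nt
      congr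
    rw [this]
    apply Finset.card_nbij' (fun p => (p.1, p.2.1)) (fun p => (p.1, p.2, 0))
    · rintro ⟨a, b, c⟩ h
      simp at h ⊢
      obtain ⟨h1, h2⟩ := h
      rw [h2] at h1
      linear_combination h1
    · rintro ⟨a, b⟩ h
      simp at h ⊢
      linear_combination h
    · rintro ⟨a, b, c⟩ h
      simp at h ⊢
      exact h.2.symm
    · rintro ⟨a, b⟩ h
      rfl

theorem card_trace_fiber [Fintype F] (t : F) :
    Nat.card {h : SpecialLinearGroup (Fin 2) F // h.1.trace = t} =
      Fintype.card F * (Fintype.card F - 1) + Nt t * Fintype.card F := by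
  classical
  rw [← card_triples t, ← Fintype.card_subtype, ← Nat.card_eq_fintype_card]
  apply Nat.card_congr
  refine ⟨fun h => ⟨(h.1.1 0 0, h.1.1 0 1, h.1.1 1 0), ?_⟩,
    fun p => ⟨⟨!![p.1.1, p.1.2.1; p.1.2.2, t - p.1.1], ?_⟩, ?_⟩, ?_, ?_⟩
  · have h1 := h.1.2
    have h2 := h.2
    rw [Matrix.det_fin_two] at h1
    rw [Matrix.trace_fin_two] at h2
    simp only
    linear_combination h1 - h.1.1 0 0 * h2
  · rw [Matrix.det_fin_two_of]
    exact p.2
  · change (!![p.1.1, p.1.2.1; p.1.2.2, t - p.1.1] : Matrix (Fin 2) (Fin 2) F).trace = t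
    rw [Matrix.trace_fin_two_of]; ring
  · rintro ⟨h, ht⟩
    apply Subtype.ext
    apply Subtype.ext
    rw [Matrix.trace_fin_two] at ht
    ext i j
    fin_cases i <;> fin_cases j <;> simp
    linear_combination -ht
  · rintro ⟨⟨a, b, c⟩, hp⟩
    rfl

theorem Nt_filter [Fintype F] [DecidableEq F] (t a : F) (ha : a * (t - a) = 1) :
    Finset.univ.filter (fun b : F => b * (t - b) = 1) = {a, t - a} := by
  ext b
  simp only [Finset.mem_filter, Finset.mem_univ, true_and, Finset.mem_insert, Finset.mem_singleton]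
  constructor
  · intro hb
    have : (b - a) * (b - (t - a)) = 0 := by linear_combination ha - hb
    rcases mul_eq_zero.1 this with h | h
    · left; exact sub_eq_zero.1 h
    · right; exact sub_eq_zero.1 h
  · rintro (rfl | rfl)
    · exact ha
    · linear_combination ha

theorem Nt_eq_two [Fintype F] (t a : F) (ha : a * (t - a) = 1) (hne : a ≠ t - a) : Nt t = 2 := by
  classical
  unfold Nt
  rw [Nt_filter t a ha, Finset.card_pair hne]

theorem Nt_eq_one [Fintype F] (t a : F) (ha : a * (t - a) = 1) (he : a = t - a) : Nt t = 1 := by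
  classical
  unfold Nt
  rw [Nt_filter t a ha, ← he]
  simp

theorem Nt_eq_zero [Fintype F] (t : F) (h : ∀ a, a * (t - a) ≠ 1) : Nt t = 0 := by
  classical
  unfold Nt
  rw [Finset.card_eq_zero, Finset.filter_eq_empty_iff]
  intro a _
  exact h a

theorem trace_eq_of_isConj {g h : SpecialLinearGroup (Fin 2) F} (hc : IsConj g h) :
    h.1.trace = g.1.trace := by
  obtain ⟨c, rfl⟩ := isConj_iff.1 hc
  exact SL2Conj.trace_conj c g

theorem card_class_of_trace [Fintype F] (g : SpecialLinearGroup (Fin 2) F) (hg : g.1.trace ^ 2 ≠ 4) :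
    Nat.card {h : SpecialLinearGroup (Fin 2) F // IsConj g h} =
      Fintype.card F * (Fintype.card F - 1) + Nt g.1.trace * Fintype.card F := by
  rw [← card_trace_fiber]
  refine Nat.card_congr (Equiv.subtypeEquivRight fun h => ⟨trace_eq_of_isConj, fun ht => ?_⟩)
  have h1 := isConj_compSL_of_trace g hg
  have h2 := isConj_compSL_of_trace h (by rw [ht]; exact hg)
  rw [ht] at h2
  exact h1.trans h2.symm

/-- there is a `t` for which `X² - tX + 1` has no root. -/
theorem exists_noroot [Fintype F] : ∃ t : F, ∀ a : F, a * (t - a) ≠ 1 := by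
  classical
  by_contra hcon
  push Not at hcon
  have hsurj : Function.Surjective (fun a : Fˣ => (a : F) + (a⁻¹ : Fˣ)) := by
    intro t
    obtain ⟨a, ha⟩ := hcon t
    have ha0 : a ≠ 0 := by
      rintro rfl
      simp at ha
    refine ⟨Units.mk0 a ha0, ?_⟩
    simp only [Units.val_mk0, Units.val_inv_eq_inv_val]
    have hinv : a * a⁻¹ = 1 := mul_inv_cancel₀ ha0
    linear_combination (-a⁻¹) * ha + (t - a) * hinv
  have h1 := Fintype.card_le_of_surjective _ hsurj
  rw [Fintype.card_units] at h1
  have : 0 < Fintype.card F := Fintype.card_pos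
  omega

end Cfsg.Agent.Lib.Helper4.SL2Class
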