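import Mathlib
import Cfsg.Agent.Lib.Helper4.SL2Class
import Cfsg.Agent.Lib.Helper5.CardPSL
import Cfsg.Agent.S0242

set_option autoImplicit false

namespace Cfsg.Agent.Lib.Helper4.SL2Class

open Matrix Cfsg.Agent.Lib.Helper4.SL2Eigen Cfsg.Agent.Lib.Helper4.SL2Conj Cfsg.Agent.Lib.Helper4.GL2Conj
  Cfsg.Agent.Lib.Helper4.PSL2Spec Cfsg.Agent.Lib.Helper4.SL2Prod

variable {F : Type*} [Field F]

theorem commutant (M H : Matrix (Fin 2) (Fin 2) F) (hM : ∀ c : F, M ≠ c • (1 : Matrix (Fin 2) (Fin 2) F))
    (hc : H * M = M * H) : ∃ x y : F, H = x • (1 : Matrix (Fin 2) (Fin 2) F) + y • M := by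
  have e00 := congrFun (congrFun hc 0) 0
  have e01 := congrFun (congrFun hc 0) 1
  have e10 := congrFun (congrFun hc 1) 0
  simp only [Matrix.mul_apply, Fin.sum_univ_two] at e00 e01 e10
  by_cases h01 : M 0 1 = 0
  · by_cases h10 : M 1 0 = 0
    · have hne : M 0 0 - M 1 1 ≠ 0 := by
        intro h
        apply hM (M 0 0)
        ext i j
        fin_cases i <;> fin_cases j <;> simp [h01, h10]
        linear_combination -h
      have hH01 : H 0 1 = 0 := by
        have : H 0 1 * (M 0 0 - M 1 1) = 0 := by rw [h01] at e01; linear_combination -e01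
        exact (mul_eq_zero.1 this).resolve_right hne
      have hH10 : H 1 0 = 0 := by
        have : H 1 0 * (M 0 0 - M 1 1) = 0 := by rw [h10] at e10; linear_combination e10
        exact (mul_eq_zero.1 this).resolve_right hne
      refine ⟨H 0 0 - (H 0 0 - H 1 1) / (M 0 0 - M 1 1) * M 0 0, (H 0 0 - H 1 1) / (M 0 0 - M 1 1), ?_⟩
      ext i j
      fin_cases i <;> fin_cases j <;> simp [h01, h10, hH01, hH10]
      field_simp
      ring
    · have hH01 : H 0 1 = 0 := by
        have : H 0 1 * M 1 0 = 0 := by rw [h01] at e00; linear_combination e00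
        exact (mul_eq_zero.1 this).resolve_right h10
      refine ⟨H 0 0 - H 1 0 / M 1 0 * M 0 0, H 1 0 / M 1 0, ?_⟩
      ext i j
      fin_cases i <;> fin_cases j <;> simp [h01, hH01]
      · field_simp
      · field_simp
        linear_combination e10
  · refine ⟨H 0 0 - H 0 1 / M 0 1 * M 0 0, H 0 1 / M 0 1, ?_⟩
    ext i j
    fin_cases i <;> fin_cases j <;> simp
    · field_simp
    · field_simp
      linear_combination -e00
    · field_simp
      linear_combination -e01

theorem det_lin (g : SpecialLinearGroup (Fin 2) F) (x y : F) :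
    (x • (1 : Matrix (Fin 2) (Fin 2) F) + y • g.1).det = x ^ 2 + x * y * g.1.trace + y ^ 2 := by
  have hd := g.2
  rw [Matrix.det_fin_two] at hd
  rw [Matrix.det_fin_two, Matrix.trace_fin_two]
  simp
  linear_combination y ^ 2 * hd

theorem card_centralizer_unip [Fintype F] (h2 : (2 : F) ≠ 0) (g : SpecialLinearGroup (Fin 2) F)
    (hg : ∀ c : F, g.1 ≠ c • (1 : Matrix (Fin 2) (Fin 2) F)) (ht : g.1.trace = 2) :
    Nat.card (Subgroup.centralizer ({g} : Set (SpecialLinearGroup (Fin 2) F))) = 2 * Fintype.card F := by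
  classical
  let ε : Bool → F := fun b => if b then 1 else -1
  have hε : ∀ b, ε b ^ 2 = 1 := by
    intro b; cases b <;> simp [ε]
  let m : F × Bool → SpecialLinearGroup (Fin 2) F := fun p =>
    ⟨(ε p.2 - p.1) • (1 : Matrix (Fin 2) (Fin 2) F) + p.1 • g.1, by
      rw [det_lin, ht]; linear_combination hε p.2⟩
  have hm : ∀ p, m p ∈ Subgroup.centralizer ({g} : Set (SpecialLinearGroup (Fin 2) F)) := by
    intro p
    rw [Subgroup.mem_centralizer_singleton_iff]
    apply Subtype.ext
    change ((ε p.2 - p.1) • (1 : Matrix (Fin 2) (Fin 2) F) + p.1 • g.1) * g.1 =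
      g.1 * ((ε p.2 - p.1) • (1 : Matrix (Fin 2) (Fin 2) F) + p.1 • g.1)
    simp [add_mul, mul_add]
  let f : F × Bool → Subgroup.centralizer ({g} : Set (SpecialLinearGroup (Fin 2) F)) := fun p =>
    ⟨m p, hm p⟩
  have hf : Function.Bijective f := by
    constructor
    · rintro ⟨y, b⟩ ⟨y', b'⟩ h
      have h1 : (ε b - y) • (1 : Matrix (Fin 2) (Fin 2) F) + y • g.1 =
          (ε b' - y') • (1 : Matrix (Fin 2) (Fin 2) F) + y' • g.1 :=
        congrArg (fun z => z.1.1) h
      have hy : y = y' := by
        by_contra hne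
        have hne' : y - y' ≠ 0 := sub_ne_zero.2 hne
        apply hg (((ε b' - y') - (ε b - y)) / (y - y'))
        have h3 : (y - y') • g.1 = ((ε b' - y') - (ε b - y)) • (1 : Matrix (Fin 2) (Fin 2) F) := by
          rw [sub_smul, sub_smul _ _ (1 : Matrix (Fin 2) (Fin 2) F)]
          rw [sub_eq_sub_iff_add_eq_add]
          rw [add_comm, h1, add_comm]
        rw [div_eq_inv_mul, mul_smul, ← h3, smul_smul, inv_mul_cancel₀ hne', one_smul]
      subst hy
      have h4 := congrFun (congrFun h1 0) 0
      simp at h4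
      have hb : b = b' := by
        cases b <;> cases b' <;> simp [ε] at h4 ⊢
        · apply h2; linear_combination -h4
        · apply h2; linear_combination h4
      rw [hb]
    · rintro ⟨h, hh⟩
      rw [Subgroup.mem_centralizer_singleton_iff] at hh
      obtain ⟨x, y, hxy⟩ := commutant g.1 h.1 hg (congrArg Subtype.val hh)
      have hd := h.2
      rw [hxy, det_lin, ht] at hd
      have h5 : (x + y - 1) * (x + y + 1) = 0 := by linear_combination hd
      rcases mul_eq_zero.1 h5 with h6 | h6
      · refine ⟨(y, true), ?_⟩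
        apply Subtype.ext
        apply Subtype.ext
        change (ε true - y) • (1 : Matrix (Fin 2) (Fin 2) F) + y • g.1 = h.1
        rw [hxy]
        have : ε true - y = x := by simp [ε]; linear_combination -h6
        rw [this]
      · refine ⟨(y, false), ?_⟩
        apply Subtype.ext
        apply Subtype.ext
        change (ε false - y) • (1 : Matrix (Fin 2) (Fin 2) F) + y • g.1 = h.1
        rw [hxy]
        have : ε false - y = x := by simp [ε]; linear_combination -h6
        rw [this]
  rw [← Nat.card_congr (Equiv.ofBijective f hf), Nat.card_prod, Nat.card_eq_fintype_card,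
    Nat.card_eq_fintype_card, Fintype.card_bool, mul_comm]

theorem card_SL2 [Fintype F] :
    Nat.card (SpecialLinearGroup (Fin 2) F) = Fintype.card F * (Fintype.card F ^ 2 - 1) := by
  have h := Cfsg.Agent.S0242.result (F := F) rfl 2 (by norm_num)
  rw [Fin.prod_univ_two] at h
  have hq : 1 < Fintype.card F := Fintype.one_lt_card
  obtain ⟨k, hk⟩ : ∃ k, Fintype.card F = k + 2 := ⟨Fintype.card F - 2, by omega⟩
  rw [hk] at h ⊢
  simp only [Fin.val_zero, Fin.val_one, pow_zero, pow_one] at h
  have e1 : k + 2 - 1 = k + 1 := by omega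
  have e2 : (k + 2) ^ 2 - 1 = (k + 1) * (k + 3) := by
    have : (k + 2) ^ 2 = (k + 1) * (k + 3) + 1 := by ring
    omega
  have e3 : (k + 2) ^ 2 - (k + 2) = (k + 1) * (k + 2) := by
    have : (k + 2) ^ 2 = (k + 1) * (k + 2) + (k + 2) := by ring
    omega
  rw [e1, e2, e3] at h
  rw [e2]
  have : (k + 1) * Nat.card (SpecialLinearGroup (Fin 2) F) = (k + 1) * ((k + 2) * ((k + 1) * (k + 3))) := by
    rw [h]; ring
  exact Nat.eq_of_mul_eq_mul_left (by omega) this

theorem card_class_unip [Fintype F] (h2 : (2 : F) ≠ 0) (g : SpecialLinearGroup (Fin 2) F)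
    (hg : ∀ c : F, g.1 ≠ c • (1 : Matrix (Fin 2) (Fin 2) F)) (ht : g.1.trace = 2) :
    2 * Nat.card {h : SpecialLinearGroup (Fin 2) F // IsConj g h} = Fintype.card F ^ 2 - 1 := by
  have h1 := Subgroup.index_mul_card (Subgroup.centralizer ({g} : Set (SpecialLinearGroup (Fin 2) F)))
  rw [index_centralizer, card_centralizer_unip h2 g hg ht, card_SL2] at h1
  have hq : 0 < Fintype.card F := Fintype.card_pos
  have : Fintype.card F * (2 * Nat.card {h : SpecialLinearGroup (Fin 2) F // IsConj g h}) =
      Fintype.card F * (Fintype.card F ^ 2 - 1) := by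
    rw [← h1]; ring
  exact Nat.eq_of_mul_eq_mul_left hq this

theorem mem_center_iff' (z : SpecialLinearGroup (Fin 2) F) :
    z ∈ Subgroup.center (SpecialLinearGroup (Fin 2) F) ↔ z = 1 ∨ z = negOne F := by
  constructor
  · intro hz
    rw [Matrix.SpecialLinearGroup.mem_center_iff] at hz
    obtain ⟨r, hr, hz⟩ := hz
    simp only [Fintype.card_fin] at hr
    have : (r - 1) * (r + 1) = 0 := by linear_combination hr
    rcases mul_eq_zero.1 this with h | h
    · left
      apply Subtype.ext
      rw [← hz, sub_eq_zero.1 h, map_one]; rfl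
    · right
      apply Subtype.ext
      rw [← hz, eq_neg_of_add_eq_zero_left h, map_neg, map_one]; rfl
  · rintro (rfl | rfl)
    · exact Subgroup.one_mem _
    · exact negOne_mem_center

theorem mk_negOne_mul (g : SpecialLinearGroup (Fin 2) F) :
    (QuotientGroup.mk (negOne F * g) : ProjectiveSpecialLinearGroup (Fin 2) F) = QuotientGroup.mk g := by
  rw [QuotientGroup.mk_mul, (QuotientGroup.eq_one_iff _).2 negOne_mem_center, one_mul]

theorem trace_negOne_mul (g : SpecialLinearGroup (Fin 2) F) :
    (negOne F * g).1.trace = - g.1.trace := by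
  change ((-1 : Matrix (Fin 2) (Fin 2) F) * g.1).trace = _
  rw [neg_mul, one_mul, Matrix.trace_neg]

theorem negOne_comm (g : SpecialLinearGroup (Fin 2) F) : g * negOne F = negOne F * g :=
  (Subgroup.mem_center_iff.1 negOne_mem_center g)

theorem conj_negOne_mul (c g : SpecialLinearGroup (Fin 2) F) :
    c * (negOne F * g) * c⁻¹ = negOne F * (c * g * c⁻¹) := by
  rw [← mul_assoc c, negOne_comm c]
  simp only [mul_assoc]

theorem negOne_mul_self : negOne F * negOne F = 1 := by
  apply Subtype.ext
  change (-1 : Matrix (Fin 2) (Fin 2) F) * (-1) = 1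
  simp

theorem isConj_mk_iff (g h : SpecialLinearGroup (Fin 2) F) :
    IsConj (QuotientGroup.mk g : ProjectiveSpecialLinearGroup (Fin 2) F) (QuotientGroup.mk h) ↔
      IsConj g h ∨ IsConj (negOne F * g) h := by
  constructor
  · intro hc
    obtain ⟨c, hc⟩ := isConj_iff.1 hc
    obtain ⟨c, rfl⟩ := QuotientGroup.mk_surjective c
    have h1 : (QuotientGroup.mk (c * g * c⁻¹) : ProjectiveSpecialLinearGroup (Fin 2) F)
        = QuotientGroup.mk h := hc
    rw [QuotientGroup.eq, mem_center_iff'] at h1
    rcases h1 with h1 | h1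
    · left
      rw [isConj_iff]
      exact ⟨c, (inv_mul_eq_one.1 h1)⟩
    · right
      rw [isConj_iff]
      refine ⟨c, ?_⟩
      have : h = (c * g * c⁻¹) * negOne F := by rw [← h1, mul_inv_cancel_left]
      rw [this, negOne_comm (c * g * c⁻¹), conj_negOne_mul]
  · rintro (hc | hc)
    · exact (QuotientGroup.mk' _).map_isConj hc
    · have := (QuotientGroup.mk' (Subgroup.center (SpecialLinearGroup (Fin 2) F))).map_isConj hc
      rw [QuotientGroup.mk'_apply, QuotientGroup.mk'_apply] at this
      have e := mk_negOne_mul g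
      rw [← e]
      exact this

theorem odd_card [Fintype F] (h2 : (2 : F) ≠ 0) : Fintype.card F % 2 = 1 := by
  apply FiniteField.odd_card_of_char_ne_two
  intro h
  apply h2
  have : CharP F 2 := by rw [← h]; exact ringChar.charP F
  exact CharTwo.two_eq_zero

theorem two_mul_index [Fintype F] (h2 : (2 : F) ≠ 0) (g : SpecialLinearGroup (Fin 2) F) :
    2 * (Subgroup.centralizer ({(QuotientGroup.mk g : ProjectiveSpecialLinearGroup (Fin 2) F)} :
      Set (ProjectiveSpecialLinearGroup (Fin 2) F))).index =
      ({h : SpecialLinearGroup (Fin 2) F | IsConj g h} ∪ {h | IsConj (negOne F * g) h}).ncard := by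
  classical
  have : Finite (ProjectiveSpecialLinearGroup (Fin 2) F) := by
    unfold ProjectiveSpecialLinearGroup; infer_instance
  rw [index_centralizer]
  have h1 := QuotientGroup.card_preimage_mk (Subgroup.center (SpecialLinearGroup (Fin 2) F))
    {y | IsConj (QuotientGroup.mk g : ProjectiveSpecialLinearGroup (Fin 2) F) y}
  rw [Cfsg.Agent.Lib.Helper5.CardPSL.card_center_SL 2 (by norm_num)] at h1
  have hodd := odd_card h2
  have hg : Nat.gcd 2 (Fintype.card F - 1) = 2 := by
    apply Nat.gcd_eq_left
    omega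
  rw [hg] at h1
  have h3 : Nat.card {y : ProjectiveSpecialLinearGroup (Fin 2) F // IsConj (QuotientGroup.mk g) y} =
      Nat.card ↥{y | IsConj (QuotientGroup.mk g : ProjectiveSpecialLinearGroup (Fin 2) F) y} := rfl
  rw [h3, ← h1, Nat.card_coe_set_eq]
  congr 1
  ext h
  simp only [Set.mem_preimage, Set.mem_ofPred_eq, Set.mem_union]
  exact isConj_mk_iff g h

theorem ncard_neg (g : SpecialLinearGroup (Fin 2) F) :
    {h : SpecialLinearGroup (Fin 2) F | IsConj (negOne F * g) h}.ncard =
      {h : SpecialLinearGroup (Fin 2) F | IsConj g h}.ncard := by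
  have : {h : SpecialLinearGroup (Fin 2) F | IsConj (negOne F * g) h} =
      (fun h => negOne F * h) '' {h : SpecialLinearGroup (Fin 2) F | IsConj g h} := by
    ext h
    simp only [Set.mem_ofPred_eq, Set.mem_image]
    constructor
    · intro hc
      obtain ⟨c, rfl⟩ := isConj_iff.1 hc
      exact ⟨c * g * c⁻¹, isConj_iff.2 ⟨c, rfl⟩, (conj_negOne_mul c g).symm⟩
    · rintro ⟨k, hk, rfl⟩
      obtain ⟨c, rfl⟩ := isConj_iff.1 hk
      exact isConj_iff.2 ⟨c, conj_negOne_mul c g⟩
  rw [this, Set.ncard_image_of_injective _ (mul_right_injective _)]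

theorem index_of_trace_ne_zero [Fintype F] (h2 : (2 : F) ≠ 0) (g : SpecialLinearGroup (Fin 2) F)
    (ht : g.1.trace ≠ 0) :
    (Subgroup.centralizer ({(QuotientGroup.mk g : ProjectiveSpecialLinearGroup (Fin 2) F)} :
      Set (ProjectiveSpecialLinearGroup (Fin 2) F))).index =
      Nat.card {h : SpecialLinearGroup (Fin 2) F // IsConj g h} := by
  have h1 := two_mul_index h2 g
  rw [Set.ncard_union_eq ?_ (Set.toFinite _) (Set.toFinite _), ncard_neg] at h1
  · have e2 : Nat.card {h : SpecialLinearGroup (Fin 2) F // IsConj g h} =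
      {h : SpecialLinearGroup (Fin 2) F | IsConj g h}.ncard := Nat.card_coe_set_eq _
    rw [e2]
    omega
  · rw [Set.disjoint_left]
    intro h ha hb
    have e1 := trace_eq_of_isConj ha
    have e2 := trace_eq_of_isConj hb
    rw [trace_negOne_mul] at e2
    apply ht
    have : 2 * g.1.trace = 0 := by linear_combination e2 - e1
    exact (mul_eq_zero.1 this).resolve_left h2

theorem index_of_trace_zero [Fintype F] (h2 : (2 : F) ≠ 0) (g : SpecialLinearGroup (Fin 2) F)
    (ht : g.1.trace = 0) :
    2 * (Subgroup.centralizer ({(QuotientGroup.mk g : ProjectiveSpecialLinearGroup (Fin 2) F)} :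
      Set (ProjectiveSpecialLinearGroup (Fin 2) F))).index =
      Nat.card {h : SpecialLinearGroup (Fin 2) F // IsConj g h} := by
  have h1 := two_mul_index h2 g
  have h4 : (4 : F) ≠ 0 := by
    have : (4 : F) = 2 * 2 := by norm_num
    rw [this]; exact mul_ne_zero h2 h2
  have hc : IsConj g (negOne F * g) := by
    have e1 := isConj_compSL_of_trace g (by rw [ht]; simpa using h4.symm)
    have e2 := isConj_compSL_of_trace (negOne F * g) (by rw [trace_negOne_mul, ht]; simpa using h4.symm)
    rw [trace_negOne_mul, ht, neg_zero] at e2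
    rw [ht] at e1
    exact e1.trans e2.symm
  have hset : {h : SpecialLinearGroup (Fin 2) F | IsConj (negOne F * g) h} =
      {h : SpecialLinearGroup (Fin 2) F | IsConj g h} := by
    ext h
    exact ⟨fun hh => hc.trans hh, fun hh => hc.symm.trans hh⟩
  rw [hset, Set.union_self] at h1
  rw [h1]
  exact (Nat.card_coe_set_eq _).symm

end Cfsg.Agent.Lib.Helper4.SL2Class
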